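-- helper30: pieces ISOP (and ISOM) of CALL S4629: the Prelude forms `quadFormPlus` / `quadFormMinus`
-- are isometric to the diagonal model forms `mQ`, the alternative being decided by the Gram
-- determinant (discriminant).
import Mathlib
import Cfsg.Agent.Helper95.OSylDefs
import Cfsg.Agent.Helper88.OSylDiag
import Cfsg.Agent.Helper43.Gram
import Cfsg.Agent.Helper43.QuadFin2
import Cfsg.Agent.Helper45.DicksonRank
set_option autoImplicit false
set_option linter.unusedVariables false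

namespace Cfsg.Agent.Helper30
open Matrix Cfsg
open Cfsg.Agent.Helper95.OSyl
universe u
variable {F : Type u} [Field F] {k r : ℕ}

/-- The Gram determinant identity from a diagonalising change of coordinates. -/
theorem osyl_gram_diag {ι κ : Type} [Fintype ι] [DecidableEq ι] [Fintype κ] [DecidableEq κ]
    (Q : (ι → F) → F) (G : Matrix ι ι F)
    (hG : ∀ u v, QuadraticMap.polar Q u v = u ⬝ᵥ G.mulVec v)
    (P : Matrix ι κ F) (P' : Matrix κ ι F) (h1 : P * P' = 1) (h2 : P' * P = 1)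
    (c : κ → F) (hQ : ∀ w, Q (P *ᵥ w) = ∑ j, c j * (w j * w j)) :
    ∃ d : F, d ≠ 0 ∧ ∏ j, (2 * c j) = d ^ 2 * G.det := by
  classical
  let Ψ : (κ → F) ≃ₗ[F] (ι → F) :=
    { toFun := fun w => P *ᵥ w
      map_add' := fun x y => Matrix.mulVec_add P x y
      map_smul' := fun a x => Matrix.mulVec_smul P a x
      invFun := fun v => P' *ᵥ v
      left_inv := fun w => by
        show P' *ᵥ (P *ᵥ w) = w
        rw [Matrix.mulVec_mulVec, h2, Matrix.one_mulVec]
      right_inv := fun v => by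
        show P *ᵥ (P' *ᵥ v) = v
        rw [Matrix.mulVec_mulVec, h1, Matrix.one_mulVec] }
  let b : Module.Basis κ F (ι → F) := (Pi.basisFun F κ).map Ψ
  obtain ⟨d, hd, hdet⟩ := Helper43.gram_det_basis Q G hG b
  refine ⟨d, hd, ?_⟩
  rw [← hdet]
  have hbi : ∀ i, b i = P *ᵥ (Pi.single i 1) := fun i => by
    simp only [b, Module.Basis.map_apply, Pi.basisFun_apply]
    rfl
  have hM : (Matrix.of fun i j : κ => QuadraticMap.polar Q (b i) (b j))
      = Matrix.diagonal fun j => 2 * c j := by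
    ext i j
    rw [Matrix.of_apply, hbi, hbi]
    unfold QuadraticMap.polar
    rw [← Matrix.mulVec_add, hQ, hQ, hQ, ← Finset.sum_sub_distrib, ← Finset.sum_sub_distrib]
    have key : ∀ l, c l * ((Pi.single i 1 + Pi.single j 1 : κ → F) l
          * (Pi.single i 1 + Pi.single j 1 : κ → F) l)
        - c l * ((Pi.single i 1 : κ → F) l * (Pi.single i 1 : κ → F) l)
        - c l * ((Pi.single j 1 : κ → F) l * (Pi.single j 1 : κ → F) l)
        = 2 * c l * ((Pi.single i (1 : F) : κ → F) l * (Pi.single j (1 : F) : κ → F) l) := by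
      intro l
      simp only [Pi.add_apply]
      ring
    rw [Finset.sum_congr rfl (fun l _ => key l), Finset.sum_eq_single i]
    · by_cases hij : i = j
      · subst hij
        rw [Matrix.diagonal_apply_eq, Pi.single_eq_same]
        ring
      · rw [Matrix.diagonal_apply_ne _ hij, Pi.single_eq_of_ne hij]
        ring
    · intro l _ hl
      rw [Pi.single_eq_of_ne hl]
      ring
    · intro h
      exact absurd (Finset.mem_univ i) h
  rw [hM, Matrix.det_diagonal]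

theorem osyl_prod_mW (c : Fin r → F) :
    ∏ x : MI k r, (2 * mW k c x) = 2 ^ (2 * k + r) * ∏ l, c l := by
  rw [Fintype.prod_sum_type]
  have h1 : ∏ x : Fin 2 × Fin k, (2 * mW k c (Sum.inl x)) = (2 : F) ^ (2 * k) := by
    simp only [mW, Sum.elim_inl, mul_one, Finset.prod_const, Finset.card_univ, Fintype.card_prod,
      Fintype.card_fin]
  have h2 : ∏ l : Fin r, (2 * mW k c (Sum.inr l)) = (2 : F) ^ r * ∏ l, c l := by
    simp only [mW, Sum.elim_inr, Finset.prod_mul_distrib, Finset.prod_const, Finset.card_univ,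
      Fintype.card_fin]
  rw [h1, h2, pow_add]
  ring

/-- the all-ones alternative forces a square Gram determinant -/
theorem osyl_alt1_sq {ι : Type} [Fintype ι] [DecidableEq ι] (h2 : (2 : F) ≠ 0)
    (Q : (ι → F) → F) (G : Matrix ι ι F)
    (hG : ∀ u v, QuadraticMap.polar Q u v = u ⬝ᵥ G.mulVec v) (m : ℕ)
    (P : Matrix ι (MI m 0) F) (P' : Matrix (MI m 0) ι F) (h1 : P * P' = 1) (h1' : P' * P = 1)
    (hQ : ∀ w, Q (P *ᵥ w) = mQ m (fun _ : Fin 0 => (1 : F)) w) : IsSquare G.det := by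
  obtain ⟨d, hd, hdet⟩ := osyl_gram_diag Q G hG P P' h1 h1' (mW m (fun _ : Fin 0 => (1 : F)))
    (fun w => by rw [hQ, mQ_apply])
  rw [osyl_prod_mW] at hdet
  have hpow : (2 : F) ^ (2 * m + 0) = ((2 : F) ^ m) ^ 2 := by
    rw [add_zero, mul_comm, pow_mul]
  rw [hpow, Finset.prod_const_one, mul_one] at hdet
  have h3 : ((2 : F) ^ m / d) ^ 2 = G.det := by
    field_simp
    linear_combination hdet
  exact ⟨(2 : F) ^ m / d, by rw [← h3]; ring⟩

/-- the nonsquare alternative forces a nonsquare Gram determinant -/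
theorem osyl_alt2_nsq {ι : Type} [Fintype ι] [DecidableEq ι] (h2 : (2 : F) ≠ 0)
    (Q : (ι → F) → F) (G : Matrix ι ι F)
    (hG : ∀ u v, QuadraticMap.polar Q u v = u ⬝ᵥ G.mulVec v) (m : ℕ) (hm : 1 ≤ m)
    (δ : F) (hδ : ¬ IsSquare δ)
    (P : Matrix ι (MI (m - 1) 2) F) (P' : Matrix (MI (m - 1) 2) ι F) (h1 : P * P' = 1)
    (h1' : P' * P = 1)
    (hQ : ∀ w, Q (P *ᵥ w) = mQ (m - 1) (![1, δ] : Fin 2 → F) w) : ¬ IsSquare G.det := by
  obtain ⟨d, hd, hdet⟩ := osyl_gram_diag Q G hG P P' h1 h1' (mW (m - 1) (![1, δ] : Fin 2 → F))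
    (fun w => by rw [hQ, mQ_apply])
  rw [osyl_prod_mW] at hdet
  rintro ⟨s, hs⟩
  apply hδ
  have hpow : (2 : F) ^ (2 * (m - 1) + 2) = ((2 : F) ^ m) ^ 2 := by
    rw [← pow_mul]
    congr 1
    omega
  have h2m : (2 : F) ^ m ≠ 0 := pow_ne_zero _ h2
  refine ⟨d * s / (2 : F) ^ m, ?_⟩
  rw [hpow, hs] at hdet
  simp only [Fin.prod_univ_two, Matrix.cons_val_zero, Matrix.cons_val_one, one_mul] at hdet
  field_simp
  linear_combination hdet

theorem osyl_iso_plus [Fintype F] (hF : Odd (Fintype.card F)) (m : ℕ) (hm : 1 ≤ m) :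
    (IsSquare ((-1 : F) ^ m) →
        ∃ (P : Matrix (Fin m ⊕ Fin m) (MI m 0) F) (P' : Matrix (MI m 0) (Fin m ⊕ Fin m) F),
          P * P' = 1 ∧ P' * P = 1 ∧
            ∀ w, Cfsg.quadFormPlus m F (P *ᵥ w) = mQ m (fun _ : Fin 0 => (1 : F)) w) ∧
      (¬ IsSquare ((-1 : F) ^ m) →
        ∃ (δ : F) (P : Matrix (Fin m ⊕ Fin m) (MI (m - 1) 2) F)
          (P' : Matrix (MI (m - 1) 2) (Fin m ⊕ Fin m) F), ¬ IsSquare δ ∧ P * P' = 1 ∧ P' * P = 1 ∧
            ∀ w, Cfsg.quadFormPlus m F (P *ᵥ w) = mQ (m - 1) (![1, δ] : Fin 2 → F) w) := by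
  have h2 : (2 : F) ≠ 0 := Helper43.two_ne_zero_of_odd_card rfl hF
  have hcard : Fintype.card (Fin m ⊕ Fin m) = 2 * m := by
    rw [Fintype.card_sum, Fintype.card_fin]
    omega
  have hD := Helper88.osyl_diag_even h2 (Helper43.plusQF m F) (Helper45.plusQF_nondeg' m) m hm hcard
  have hdet := Helper43.det_gramPlus m F
  constructor
  · intro hsq
    rcases hD with h | ⟨δ, P, P', hδ, h1, h1', hQ⟩
    · exact h
    · exfalso
      have h3 := osyl_alt2_nsq h2 (Cfsg.quadFormPlus m F) (Helper43.gramPlus m F)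
        (Helper43.polar_quadFormPlus m F) m hm δ hδ P P' h1 h1' hQ
      rw [hdet] at h3
      exact h3 hsq
  · intro hnsq
    rcases hD with ⟨P, P', h1, h1', hQ⟩ | h
    · exfalso
      have h3 := osyl_alt1_sq h2 (Cfsg.quadFormPlus m F) (Helper43.gramPlus m F)
        (Helper43.polar_quadFormPlus m F) m P P' h1 h1' hQ
      rw [hdet] at h3
      exact hnsq h3
    · exact h

theorem osyl_iso_minus [Fintype F] (hF : Odd (Fintype.card F)) (m : ℕ) (hm : 1 ≤ m) (a b : F)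
    (hab : ∀ z₁ z₂ : F, z₁ ^ 2 + a * z₁ * z₂ + b * z₂ ^ 2 = 0 → z₁ = 0 ∧ z₂ = 0) :
    (¬ IsSquare ((-1 : F) ^ m) →
        ∃ (P : Matrix ((Fin (m - 1) ⊕ Fin (m - 1)) ⊕ Fin 2) (MI m 0) F)
          (P' : Matrix (MI m 0) ((Fin (m - 1) ⊕ Fin (m - 1)) ⊕ Fin 2) F),
          P * P' = 1 ∧ P' * P = 1 ∧
            ∀ w, Cfsg.quadFormMinus (m - 1) F a b (P *ᵥ w) = mQ m (fun _ : Fin 0 => (1 : F)) w) ∧
      (IsSquare ((-1 : F) ^ m) →
        ∃ (δ : F) (P : Matrix ((Fin (m - 1) ⊕ Fin (m - 1)) ⊕ Fin 2) (MI (m - 1) 2) F)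
          (P' : Matrix (MI (m - 1) 2) ((Fin (m - 1) ⊕ Fin (m - 1)) ⊕ Fin 2) F), ¬ IsSquare δ ∧
          P * P' = 1 ∧ P' * P = 1 ∧
            ∀ w, Cfsg.quadFormMinus (m - 1) F a b (P *ᵥ w) = mQ (m - 1) (![1, δ] : Fin 2 → F) w) := by
  classical
  have h2 : (2 : F) ≠ 0 := Helper43.two_ne_zero_of_odd_card rfl hF
  have hcard : Fintype.card ((Fin (m - 1) ⊕ Fin (m - 1)) ⊕ Fin 2) = 2 * m := by
    rw [Fintype.card_sum, Fintype.card_sum, Fintype.card_fin, Fintype.card_fin]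
    omega
  have hD := Helper88.osyl_diag_even h2 (Helper43.minusQF (m - 1) F a b)
    (Helper45.minusQF_nondeg' (m - 1) a b hab) m hm hcard
  have hN := Helper43.not_isSquare_of_anisotropic h2 a b hab
  have hdet : (Helper43.gramMinus (m - 1) F a b).det = (-1 : F) ^ m * (a ^ 2 - 4 * b) := by
    rw [Helper43.det_gramMinus]
    obtain ⟨n, rfl⟩ : ∃ n, m = n + 1 := ⟨m - 1, by omega⟩
    rw [Nat.add_sub_cancel, pow_succ]
    ring
  have hne : (-1 : F) ^ m ≠ 0 := pow_ne_zero _ (neg_ne_zero.mpr one_ne_zero)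
  constructor
  · intro hnsq
    rcases hD with h | ⟨δ, P, P', hδ, h1, h1', hQ⟩
    · exact h
    · exfalso
      have h3 := osyl_alt2_nsq h2 (Cfsg.quadFormMinus (m - 1) F a b) (Helper43.gramMinus (m - 1) F a b)
        (Helper43.polar_quadFormMinus (m - 1) F a b) m hm δ hδ P P' h1 h1' hQ
      rw [hdet, Helper43.isSquare_mul_nonsquare_iff hne hN] at h3
      exact h3 hnsq
  · intro hsq
    rcases hD with ⟨P, P', h1, h1', hQ⟩ | h
    · exfalso
      have h3 := osyl_alt1_sq h2 (Cfsg.quadFormMinus (m - 1) F a b) (Helper43.gramMinus (m - 1) F a b)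
        (Helper43.polar_quadFormMinus (m - 1) F a b) m P P' h1 h1' hQ
      rw [hdet, Helper43.isSquare_mul_nonsquare_iff hne hN] at h3
      exact h3 hsq
    · exact h

end Cfsg.Agent.Helper30
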