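/-
Helper library of seat helper30: a group `G` of order `320` whose `O_2(G) = H` is "extraspecial
like" of order `32` (a central subgroup `Z` of order two containing all commutators and squares of
`H`) and self-centralizing.  For an involution `T ∉ H` the centralizer `C_H(T)` has order `4`,
or it has order `8` and exponent two.
Namespace `Cfsg.Agent.Helper30`.
-/
import Cfsg.Agent.Helper30.ConjFix
import Mathlib.GroupTheory.Sylow
import Mathlib.GroupTheory.IndexNormal
import Mathlib.GroupTheory.Perm.Cycle.Type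

set_option autoImplicit false

namespace Cfsg.Agent.Helper30

open Subgroup

variable {G : Type*} [Group G] {Q : Type*} [Group Q]

/-- The setting: `π : G → Q` is onto with central kernel `Z ≤ H` of order two, `π(H)` is abelian
of exponent two, `|G| = 320`, `|H| = 32`, `H` is the largest normal `2`-subgroup and contains
its centralizer. -/
structure Ord320Setting (H Z : Subgroup G) (π : G →* Q) : Prop where
  normal : H.Normal
  ker : π.ker = Z
  surj : Function.Surjective π
  zle : Z ≤ H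
  zcent : ∀ z ∈ Z, ∀ g : G, g * z = z * g
  zcard : Nat.card ↥Z = 2
  comm : ∀ a ∈ H, ∀ b ∈ H, π a * π b = π b * π a
  sq : ∀ a ∈ H, π a * π a = 1
  cardG : Nat.card G = 320
  cardH : Nat.card ↥H = 32
  hmax : ∀ N : Subgroup G, N.Normal → IsPGroup 2 ↥N → N ≤ H
  cent : centralizer (H : Set G) ≤ H

/-- The elements of `H` commuting with `x` modulo the kernel of `π`. -/
def WSub (H : Subgroup G) (π : G →* Q) (x : G) : Subgroup G :=
  H ⊓ (centralizer ({π x} : Set Q)).comap π

variable {H Z : Subgroup G} {π : G →* Q}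

theorem mem_WSub {h x : G} : h ∈ WSub H π x ↔ h ∈ H ∧ π h * π x = π x * π h := by
  unfold WSub
  rw [Subgroup.mem_inf, Subgroup.mem_comap, mem_centralizer_singleton_iff]

theorem WSub_le (x : G) : WSub H π x ≤ H := inf_le_left

theorem cent_le_WSub (x : G) : H ⊓ centralizer ({x} : Set G) ≤ WSub H π x := by
  intro h hh
  obtain ⟨h1, h2⟩ := Subgroup.mem_inf.mp hh
  rw [mem_centralizer_singleton_iff] at h2
  rw [mem_WSub]
  exact ⟨h1, by rw [← map_mul, ← map_mul, h2]⟩

theorem WSub_inf_le_mul_inv (a b : G) : WSub H π a ⊓ WSub H π b ≤ WSub H π (a * b⁻¹) := by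
  intro h hh
  obtain ⟨h1, h2⟩ := Subgroup.mem_inf.mp hh
  rw [mem_WSub] at h1 h2 ⊢
  refine ⟨h1.1, ?_⟩
  rw [map_mul, map_inv]
  have ha : Commute (π h) (π a) := h1.2
  have hb : Commute (π h) (π b) := h2.2
  exact ha.mul_right hb.inv_right

theorem WSub_le_pow (a : G) (n : ℕ) : WSub H π a ≤ WSub H π (a ^ n) := by
  intro h hh
  rw [mem_WSub] at hh ⊢
  refine ⟨hh.1, ?_⟩
  rw [map_pow]
  have ha : Commute (π h) (π a) := hh.2
  exact ha.pow_right n

theorem conj_mem_WSub (hn : H.Normal) (g x : G) {h : G} (hh : h ∈ WSub H π x) :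
    g * h * g⁻¹ ∈ WSub H π (g * x * g⁻¹) := by
  rw [mem_WSub] at hh ⊢
  refine ⟨hn.conj_mem h hh.1 g, ?_⟩
  simp only [map_mul, map_inv]
  have ha : π h * π x = π x * π h := hh.2
  calc π g * π h * (π g)⁻¹ * (π g * π x * (π g)⁻¹) = π g * (π h * π x) * (π g)⁻¹ := by group
    _ = π g * (π x * π h) * (π g)⁻¹ := by rw [ha]
    _ = π g * π x * (π g)⁻¹ * (π g * π h * (π g)⁻¹) := by group

namespace Ord320Setting

theorem z_le_WSub (S : Ord320Setting H Z π) (x : G) : Z ≤ WSub H π x := by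
  intro z hz
  rw [mem_WSub]
  have h1 : π z = 1 := by rw [← MonoidHom.mem_ker, S.ker]; exact hz
  exact ⟨S.zle hz, by rw [h1, one_mul, mul_one]⟩

theorem WSub_mul_left (S : Ord320Setting H Z π) {h₀ : G} (h₀H : h₀ ∈ H) (x : G) :
    WSub H π (h₀ * x) = WSub H π x := by
  ext h
  rw [mem_WSub, mem_WSub, map_mul]
  constructor
  · rintro ⟨hh, hc⟩
    refine ⟨hh, ?_⟩
    have h1 : Commute (π h) (π h₀) := S.comm h hh h₀ h₀H
    have h2 : Commute (π h) (π h₀ * π x) := hc
    have h3 : Commute (π h) ((π h₀)⁻¹ * (π h₀ * π x)) := h1.inv_right.mul_right h2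
    rwa [inv_mul_cancel_left] at h3
  · rintro ⟨hh, hc⟩
    refine ⟨hh, ?_⟩
    have h1 : Commute (π h) (π h₀) := S.comm h hh h₀ h₀H
    have h2 : Commute (π h) (π x) := hc
    exact h1.mul_right h2

theorem z_mul_self (S : Ord320Setting H Z π) {ζ : G} (hζ : ζ ∈ Z) : ζ * ζ = 1 := by
  have h := pow_card_eq_one' (G := ↥Z) (x := ⟨ζ, hζ⟩)
  rw [S.zcard] at h
  have h' := congrArg Subtype.val h
  rw [← pow_two]
  exact h'

/-- Elements of `H` of order dividing five are trivial. -/
theorem eq_one_of_mem_of_pow_five (S : Ord320Setting H Z π) {x : G} (hx : x ∈ H)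
    (hx5 : x ^ 5 = 1) : x = 1 := by
  have h32 : x ^ 32 = 1 := by
    have h := pow_card_eq_one' (G := ↥H) (x := ⟨x, hx⟩)
    rw [S.cardH] at h
    exact congrArg Subtype.val h
  have h1 : orderOf x ∣ Nat.gcd 5 32 :=
    Nat.dvd_gcd (orderOf_dvd_of_pow_eq_one hx5) (orderOf_dvd_of_pow_eq_one h32)
  have h2 : Nat.gcd 5 32 = 1 := by norm_num
  rw [h2, Nat.dvd_one] at h1
  exact orderOf_eq_one_iff.mp h1

/-- An element of order five has only the centre as fixed points on `H`. -/
theorem free5 (S : Ord320Setting H Z π) [Finite G] {g : G} (hg : g ^ 5 = 1) (hg1 : g ≠ 1) :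
    H ⊓ centralizer ({g} : Set G) ≤ Z := by
  have hn : H.Normal := S.normal
  have : Fact (Nat.Prime 5) := ⟨Nat.prime_five⟩
  have hgH : g ∉ H := fun h => hg1 (S.eq_one_of_mem_of_pow_five h hg)
  have hcong := card_modEq_card_inf_centralizer 5 H g hg (fun k hk => hn.conj_mem k hk g)
  rw [S.cardH] at hcong
  have hdvd : Nat.card ↥(H ⊓ centralizer ({g} : Set G)) ∣ 32 := by
    rw [← S.cardH]; exact Subgroup.card_dvd_of_le inf_le_left
  have hne : Nat.card ↥(H ⊓ centralizer ({g} : Set G)) ≠ 32 := by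
    intro h32
    have heq : H ⊓ centralizer ({g} : Set G) = H :=
      Subgroup.eq_of_le_of_card_ge inf_le_left (by rw [h32, S.cardH])
    apply hgH
    apply S.cent
    rw [mem_centralizer_iff]
    intro h hh
    have h1 : h ∈ H ⊓ centralizer ({g} : Set G) := by rw [heq]; exact hh
    exact (mem_centralizer_singleton_iff.mp (Subgroup.mem_inf.mp h1).2)
  have h2 : Nat.card ↥(H ⊓ centralizer ({g} : Set G)) = 2 := by
    have hle : Nat.card ↥(H ⊓ centralizer ({g} : Set G)) ≤ 32 := Nat.le_of_dvd (by norm_num) hdvd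
    unfold Nat.ModEq at hcong
    generalize Nat.card ↥(H ⊓ centralizer ({g} : Set G)) = c at *
    interval_cases c <;> omega
  have hZle : Z ≤ H ⊓ centralizer ({g} : Set G) := by
    intro z hz
    refine Subgroup.mem_inf.mpr ⟨S.zle hz, ?_⟩
    rw [mem_centralizer_singleton_iff]
    exact (S.zcent z hz g).symm
  have := Subgroup.eq_of_le_of_card_ge hZle (by rw [h2, S.zcard])
  rw [this]

theorem WSub_le_of_pow_five (S : Ord320Setting H Z π) [Finite G] {g : G} (hg : g ^ 5 = 1)
    (hg1 : g ≠ 1) : WSub H π g ≤ Z := by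
  intro h hh
  rw [mem_WSub] at hh
  obtain ⟨hH, hc⟩ := hh
  apply S.free5 hg hg1
  refine Subgroup.mem_inf.mpr ⟨hH, ?_⟩
  rw [mem_centralizer_singleton_iff]
  have hζ : g * h * g⁻¹ * h⁻¹ ∈ Z := by
    rw [← S.ker, MonoidHom.mem_ker]
    simp only [map_mul, map_inv]
    rw [← hc]; group
  have hζ2 := S.z_mul_self hζ
  have hζc := S.zcent _ hζ
  have e1 : g * h = g * h * g⁻¹ * h⁻¹ * h * g := by group
  generalize g * h * g⁻¹ * h⁻¹ = ζ at hζ hζ2 hζc e1
  have e2 : g ^ 2 * h = h * g ^ 2 := by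
    calc g ^ 2 * h = g * (g * h) := by rw [pow_two, mul_assoc]
      _ = g * (ζ * h * g) := by rw [e1]
      _ = (g * ζ) * h * g := by group
      _ = ζ * (g * h) * g := by rw [hζc g]; group
      _ = ζ * (ζ * h * g) * g := by rw [e1]
      _ = (ζ * ζ) * h * (g * g) := by group
      _ = h * g ^ 2 := by rw [hζ2, one_mul, pow_two]
  have e3 : Commute (g ^ 2) h := e2
  have e4 : Commute ((g ^ 2) ^ 3) h := e3.pow_left 3
  have e5 : (g ^ 2) ^ 3 = g := by
    rw [← pow_mul]
    calc g ^ (2 * 3) = g ^ 5 * g := by rw [← pow_succ]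
      _ = g := by rw [hg, one_mul]
  rw [e5] at e4
  exact e4.eq.symm

/-- If `x` centralizes `H` modulo `Z`, then `x ∈ H`. -/
theorem mem_of_le_WSub (S : Ord320Setting H Z π) [Finite G] {x : G} (hx : H ≤ WSub H π x) :
    x ∈ H := by
  have hn : H.Normal := S.normal
  have hmemK : ∀ y : G, y ∈ (centralizer ((H.map π : Subgroup Q) : Set Q)).comap π ↔
      ∀ h ∈ H, π h * π y = π y * π h := by
    intro y
    rw [Subgroup.mem_comap, mem_centralizer_iff]
    constructor
    · intro hy h hh; exact hy (π h) (Subgroup.mem_map_of_mem π hh)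
    · rintro hy _ ⟨h, hh, rfl⟩; exact hy h hh
  have hKn : ((centralizer ((H.map π : Subgroup Q) : Set Q)).comap π).Normal := by
    have h1 : (H.map π).Normal := hn.map π S.surj
    have h2 : (centralizer ((H.map π : Subgroup Q) : Set Q)).Normal := Subgroup.normal_centralizer
    exact h2.comap π
  generalize (centralizer ((H.map π : Subgroup Q) : Set Q)).comap π = K₁ at hmemK hKn
  have hno5 : ∀ y ∈ K₁, y ^ 5 = 1 → y = 1 := by
    intro y hy hy5
    by_contra hy1
    have h1 : H ≤ Z := fun h hh =>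
      S.WSub_le_of_pow_five hy5 hy1 (by rw [mem_WSub]; exact ⟨hh, (hmemK y).mp hy h hh⟩)
    have h2 := Subgroup.card_le_of_le h1
    rw [S.cardH, S.zcard] at h2
    omega
  have hK2 : IsPGroup 2 ↥K₁ := by
    have hdvd : Nat.card ↥K₁ ∣ 320 := by
      rw [← S.cardG]; exact Subgroup.card_subgroup_dvd_card K₁
    have h5 : ¬ 5 ∣ Nat.card ↥K₁ := by
      intro h5
      have : Fact (Nat.Prime 5) := ⟨Nat.prime_five⟩
      obtain ⟨y, hy⟩ := exists_prime_orderOf_dvd_card' 5 h5
      have hy5 : (y : G) ^ 5 = 1 := by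
        have h := pow_orderOf_eq_one y
        rw [hy] at h
        exact congrArg Subtype.val h
      have hy1 : y = 1 := Subtype.ext (hno5 y y.2 hy5)
      rw [hy1, orderOf_one] at hy
      omega
    have h64 : Nat.card ↥K₁ ∣ 2 ^ 6 := by
      have hcop : Nat.Coprime (Nat.card ↥K₁) 5 :=
        ((Nat.Prime.coprime_iff_not_dvd Nat.prime_five).mpr h5).symm
      have h320 : (320 : ℕ) = 2 ^ 6 * 5 := by norm_num
      rw [h320] at hdvd
      exact hcop.dvd_of_dvd_mul_right hdvd
    obtain ⟨k, -, hk'⟩ := (Nat.dvd_prime_pow Nat.prime_two).mp h64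
    exact IsPGroup.of_card hk'
  have hle := S.hmax K₁ hKn hK2
  exact hle ((hmemK x).mpr (fun h hh => ((mem_WSub).mp (hx hh)).2))

/-- Key bound: for `T ∉ H`, the group `W(T)` of elements of `H` commuting with `T` modulo `Z` has
order at most `8`, provided it has order at least `4`. -/
theorem card_WSub_le (S : Ord320Setting H Z π) [Finite G] {T : G} (hT : T ∉ H)
    (h4 : 4 ≤ Nat.card ↥(WSub H π T)) : Nat.card ↥(WSub H π T) ≤ 8 := by
  have hn : H.Normal := S.normal
  have : Fact (Nat.Prime 5) := ⟨Nat.prime_five⟩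
  obtain ⟨g, hg⟩ := exists_prime_orderOf_dvd_card' (G := G) 5 (by rw [S.cardG]; norm_num)
  have hg5 : g ^ 5 = 1 := by rw [← hg]; exact pow_orderOf_eq_one g
  have hg1 : g ≠ 1 := by rintro rfl; rw [orderOf_one] at hg; omega
  have hQ : Nat.card (G ⧸ H) = 10 := by
    have h := Subgroup.card_eq_card_quotient_mul_card_subgroup H
    rw [S.cardG, S.cardH] at h
    omega
  have hρ : ∀ x : G, QuotientGroup.mk' H x = 1 ↔ x ∈ H := fun x => QuotientGroup.eq_one_iff x
  generalize QuotientGroup.mk' H = ρ at hρ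
  have hρg : orderOf (ρ g) = 5 := by
    apply orderOf_eq_prime
    · rw [← map_pow, hg5, map_one]
    · rw [Ne, hρ]; intro hgH; exact hg1 (S.eq_one_of_mem_of_pow_five hgH hg5)
  have hidx : (zpowers (ρ g)).index = 2 := by
    have h := Subgroup.card_mul_index (zpowers (ρ g))
    rw [Nat.card_zpowers, hρg, hQ] at h
    omega
  have hzn : (zpowers (ρ g)).Normal := Subgroup.normal_of_index_eq_two hidx
  have hw5 : (T * g * T⁻¹ * g⁻¹) ^ 5 ∈ H := by
    rw [← hρ, map_pow]
    have h1 : ρ T * ρ g * (ρ T)⁻¹ ∈ zpowers (ρ g) := hzn.conj_mem _ (mem_zpowers _) _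
    have h2 : ρ (T * g * T⁻¹ * g⁻¹) ∈ zpowers (ρ g) := by
      simp only [map_mul, map_inv]
      exact Subgroup.mul_mem _ h1 (Subgroup.inv_mem _ (mem_zpowers _))
    obtain ⟨k, hk⟩ := h2
    have hk' : ρ g ^ k = ρ (T * g * T⁻¹ * g⁻¹) := hk
    rw [← hk', ← zpow_natCast, ← zpow_mul, mul_comm, zpow_mul, zpow_natCast, ← map_pow, hg5,
      map_one, one_zpow]
  have e0 : g * T * g⁻¹ = (T * g * T⁻¹ * g⁻¹)⁻¹ * T := by group
  have e1 : T * g * T⁻¹ * g⁻¹ = T * (g * T * g⁻¹)⁻¹ := by group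
  generalize T * g * T⁻¹ * g⁻¹ = w at hw5 e0 e1
  by_cases hwH : w ∈ H
  · exfalso
    have hnorm : ∀ k ∈ WSub H π T, g * k * g⁻¹ ∈ WSub H π T := by
      intro k hk
      have h := conj_mem_WSub hn g T hk
      rwa [e0, S.WSub_mul_left (H.inv_mem hwH)] at h
    have hcong := card_modEq_card_inf_centralizer 5 (WSub H π T) g hg5 hnorm
    have hfix : WSub H π T ⊓ centralizer ({g} : Set G) = Z := by
      apply le_antisymm
      · exact (inf_le_inf_right _ (WSub_le T)).trans (S.free5 hg5 hg1)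
      · intro z hz
        refine Subgroup.mem_inf.mpr ⟨S.z_le_WSub T hz, ?_⟩
        rw [mem_centralizer_singleton_iff]
        exact (S.zcent z hz g).symm
    rw [hfix, S.zcard] at hcong
    have hdvd : Nat.card ↥(WSub H π T) ∣ 32 := by
      rw [← S.cardH]; exact Subgroup.card_dvd_of_le (WSub_le T)
    have h32 : Nat.card ↥(WSub H π T) = 32 := by
      have hle : Nat.card ↥(WSub H π T) ≤ 32 := Nat.le_of_dvd (by norm_num) hdvd
      unfold Nat.ModEq at hcong
      generalize Nat.card ↥(WSub H π T) = c at *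
      interval_cases c <;> omega
    have hHW : H ≤ WSub H π T := by
      have h := Subgroup.eq_of_le_of_card_ge (WSub_le (H := H) (π := π) T) (by rw [h32, S.cardH])
      rw [h]
    exact hT (S.mem_of_le_WSub hHW)
  · have hu5 : (w ^ 64) ^ 5 = 1 := by
      rw [← pow_mul]
      have h := pow_card_eq_one' (G := G) (x := w)
      rwa [S.cardG] at h
    have huH : w ^ 64 ∉ H := by
      intro hu
      apply hwH
      have h : w = (w ^ 5) ^ 13 * (w ^ 64)⁻¹ := by
        rw [← pow_mul]; group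
      rw [h]
      exact H.mul_mem (H.pow_mem hw5 13) (H.inv_mem hu)
    have hu1 : w ^ 64 ≠ 1 := fun h => huH (h ▸ H.one_mem)
    have hWu := S.WSub_le_of_pow_five hu5 hu1
    have hint : WSub H π T ⊓ WSub H π (g * T * g⁻¹) ≤ Z := by
      refine (WSub_inf_le_mul_inv T (g * T * g⁻¹)).trans ?_
      rw [← e1]
      exact (WSub_le_pow w 64).trans hWu
    have hcardle : Nat.card ↥(WSub H π T) ≤ Nat.card ↥(WSub H π (g * T * g⁻¹)) := by
      apply Nat.card_le_card_of_injective (fun k : ↥(WSub H π T) =>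
        (⟨g * k * g⁻¹, conj_mem_WSub hn g T k.2⟩ : ↥(WSub H π (g * T * g⁻¹))))
      intro a b hab
      have h := congrArg Subtype.val hab
      have h' : g * (a : G) * g⁻¹ = g * (b : G) * g⁻¹ := h
      apply Subtype.ext
      have h'' := mul_right_cancel h'
      exact mul_left_cancel h''
    have hprod := card_mul_card_le_of_le (WSub_le (H := H) (π := π) T)
      (WSub_le (H := H) (π := π) (g * T * g⁻¹))
    have hZle : Nat.card ↥(WSub H π T ⊓ WSub H π (g * T * g⁻¹)) ≤ 2 := by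
      rw [← S.zcard]; exact Subgroup.card_le_of_le hint
    rw [S.cardH] at hprod
    nlinarith

/-- For an involution `T ∉ H` whose centralizer in `H` contains a subgroup `V` of order four:
either `C_H(T) = V`, or `C_H(T)` has order `8` and exponent two. -/
theorem cent_eq_or (S : Ord320Setting H Z π) [Finite G] {T : G} (hT2 : T * T = 1) (hT : T ∉ H)
    (V : Subgroup G) (hV : V ≤ H ⊓ centralizer ({T} : Set G)) (hV4 : Nat.card ↥V = 4) :
    H ⊓ centralizer ({T} : Set G) = V ∨
      (Nat.card ↥(H ⊓ centralizer ({T} : Set G)) = 8 ∧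
        ∀ x ∈ H ⊓ centralizer ({T} : Set G), x * x = 1) := by
  have hn : H.Normal := S.normal
  have hCW : H ⊓ centralizer ({T} : Set G) ≤ WSub H π T := cent_le_WSub T
  have h4 : 4 ≤ Nat.card ↥(WSub H π T) := by
    rw [← hV4]; exact Subgroup.card_le_of_le (hV.trans hCW)
  have hW8 := S.card_WSub_le hT h4
  have hC32 : Nat.card ↥(H ⊓ centralizer ({T} : Set G)) ∣ 32 := by
    rw [← S.cardH]; exact Subgroup.card_dvd_of_le inf_le_left
  have hC4 : 4 ∣ Nat.card ↥(H ⊓ centralizer ({T} : Set G)) := by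
    rw [← hV4]; exact Subgroup.card_dvd_of_le hV
  have hC8 : Nat.card ↥(H ⊓ centralizer ({T} : Set G)) ≤ 8 :=
    (Subgroup.card_le_of_le hCW).trans hW8
  have hcases : Nat.card ↥(H ⊓ centralizer ({T} : Set G)) = 4 ∨
      Nat.card ↥(H ⊓ centralizer ({T} : Set G)) = 8 := by
    generalize Nat.card ↥(H ⊓ centralizer ({T} : Set G)) = c at *
    interval_cases c <;> omega
  rcases hcases with hc | hc
  · left
    exact (Subgroup.eq_of_le_of_card_ge hV (by rw [hc, hV4])).symm
  · right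
    refine ⟨hc, ?_⟩
    have hCeq : H ⊓ centralizer ({T} : Set G) = WSub H π T :=
      Subgroup.eq_of_le_of_card_ge hCW (by rw [hc]; exact hW8)
    have hTinv : T⁻¹ = T := inv_eq_of_mul_eq_one_left hT2
    -- the commutator map
    have hcH : ∀ h ∈ H, h⁻¹ * T * h * T⁻¹ ∈ H := by
      intro h hh
      have h1 : T * h * T⁻¹ ∈ H := hn.conj_mem h hh T
      have h2 : h⁻¹ * T * h * T⁻¹ = h⁻¹ * (T * h * T⁻¹) := by group
      rw [h2]
      exact H.mul_mem (H.inv_mem hh) h1
    have hinvT : ∀ h : G, T * (h⁻¹ * T * h * T⁻¹) * T⁻¹ = (h⁻¹ * T * h * T⁻¹)⁻¹ := by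
      intro h
      rw [hTinv]
      have e : (h⁻¹ * T * h * T)⁻¹ = T⁻¹ * h⁻¹ * T⁻¹ * h := by group
      rw [e, hTinv]
      calc T * (h⁻¹ * T * h * T) * T = T * h⁻¹ * T * h * (T * T) := by group
        _ = T * h⁻¹ * T * h := by rw [hT2, mul_one]
    have hπinv : ∀ a ∈ H, (π a)⁻¹ = π a := fun a ha => inv_eq_of_mul_eq_one_left (S.sq a ha)
    have hcC : ∀ h ∈ H, h⁻¹ * T * h * T⁻¹ ∈ H ⊓ centralizer ({T} : Set G) := by
      intro h hh
      rw [hCeq, mem_WSub]
      refine ⟨hcH h hh, ?_⟩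
      have h1 := congrArg π (hinvT h)
      rw [map_inv, hπinv _ (hcH h hh), map_mul, map_mul, map_inv] at h1
      -- h1 : π T * π c * (π T)⁻¹ = π c
      calc π (h⁻¹ * T * h * T⁻¹) * π T = π T * π (h⁻¹ * T * h * T⁻¹) * (π T)⁻¹ * π T := by
            rw [h1]
        _ = π T * π (h⁻¹ * T * h * T⁻¹) := by group
    have hcsq : ∀ h ∈ H, (h⁻¹ * T * h * T⁻¹) * (h⁻¹ * T * h * T⁻¹) = 1 := by
      intro h hh
      have h1 := (mem_centralizer_singleton_iff.mp (Subgroup.mem_inf.mp (hcC h hh)).2)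
      -- h1 : c * T = T * c
      have h2 := hinvT h
      have h3 : T * (h⁻¹ * T * h * T⁻¹) * T⁻¹ = h⁻¹ * T * h * T⁻¹ := by
        rw [← h1]; group
      rw [h3] at h2
      calc (h⁻¹ * T * h * T⁻¹) * (h⁻¹ * T * h * T⁻¹)
          = (h⁻¹ * T * h * T⁻¹) * (h⁻¹ * T * h * T⁻¹)⁻¹ := by rw [← h2]
        _ = 1 := mul_inv_cancel _
    -- the homomorphism `h ↦ π(h⁻¹ T h T⁻¹)` on `H`
    let φ : ↥H →* Q :=
      { toFun := fun h => π ((h : G)⁻¹ * T * h * T⁻¹)
        map_one' := by
          show π (((1 : ↥H) : G)⁻¹ * T * ((1 : ↥H) : G) * T⁻¹) = 1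
          rw [Subgroup.coe_one]
          have e : (1 : G)⁻¹ * T * 1 * T⁻¹ = 1 := by group
          rw [e, map_one]
        map_mul' := by
          intro a b
          show π (((a * b : ↥H) : G)⁻¹ * T * ((a * b : ↥H) : G) * T⁻¹) =
            π ((a : G)⁻¹ * T * a * T⁻¹) * π ((b : G)⁻¹ * T * b * T⁻¹)
          rw [Subgroup.coe_mul]
          have hcomm := S.comm _ (hcH a a.2) _ (H.inv_mem b.2)
          have e1 : ((a : G) * b)⁻¹ * T * ((a : G) * b) * T⁻¹ =
              (b : G)⁻¹ * ((a : G)⁻¹ * T * a * T⁻¹) * (T * b * T⁻¹) := by group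
          have e2 : (b : G)⁻¹ * T * b * T⁻¹ = (b : G)⁻¹ * (T * b * T⁻¹) := by group
          rw [e1, e2]
          generalize (a : G)⁻¹ * T * a * T⁻¹ = ca at hcomm ⊢
          generalize T * (b : G) * T⁻¹ = tb
          simp only [map_mul]
          rw [← hcomm, mul_assoc] }
    have hφ : ∀ h : ↥H, φ h = π ((h : G)⁻¹ * T * h * T⁻¹) := fun h => rfl
    have hker : φ.ker = (WSub H π T).subgroupOf H := by
      ext h
      rw [MonoidHom.mem_ker, hφ, Subgroup.mem_subgroupOf, mem_WSub]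
      simp only [map_mul, map_inv]
      constructor
      · intro h1
        refine ⟨h.2, ?_⟩
        calc π (h : G) * π T = π (h : G) * ((π (h : G))⁻¹ * π T * π (h : G) * (π T)⁻¹) * π T := by
              rw [h1, mul_one]
          _ = π T * π (h : G) := by group
      · rintro ⟨-, h1⟩
        calc (π (h : G))⁻¹ * π T * π (h : G) * (π T)⁻¹
            = (π (h : G))⁻¹ * (π T * π (h : G)) * (π T)⁻¹ := by group
          _ = (π (h : G))⁻¹ * (π (h : G) * π T) * (π T)⁻¹ := by rw [h1]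
          _ = 1 := by group
    have hkercard : Nat.card ↥φ.ker = 8 := by
      rw [hker, Nat.card_congr (Subgroup.subgroupOfEquivOfLe (WSub_le (H := H) (π := π) T)).toEquiv,
        ← hCeq, hc]
    have hrange : Nat.card ↥φ.range = 4 := by
      have h1 := Subgroup.card_mul_index φ.ker
      rw [Subgroup.index_ker, hkercard, S.cardH] at h1
      omega
    -- the restriction of `π` to `C`
    have hZC : Z ≤ H ⊓ centralizer ({T} : Set G) := by
      rw [hCeq]; exact S.z_le_WSub T
    have hkerψ : (π.comp (H ⊓ centralizer ({T} : Set G)).subtype).ker =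
        Z.subgroupOf (H ⊓ centralizer ({T} : Set G)) := by
      ext x
      rw [MonoidHom.mem_ker, Subgroup.mem_subgroupOf, ← S.ker, MonoidHom.mem_ker]
      rfl
    have hkerψcard : Nat.card ↥(π.comp (H ⊓ centralizer ({T} : Set G)).subtype).ker = 2 := by
      rw [hkerψ, Nat.card_congr (Subgroup.subgroupOfEquivOfLe hZC).toEquiv, S.zcard]
    have hrangeψ : Nat.card ↥(π.comp (H ⊓ centralizer ({T} : Set G)).subtype).range = 4 := by
      have h1 := Subgroup.card_mul_index (π.comp (H ⊓ centralizer ({T} : Set G)).subtype).ker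
      rw [Subgroup.index_ker, hkerψcard, hc] at h1
      omega
    have hQfin : Finite Q := Finite.of_surjective π S.surj
    have hle : φ.range ≤ (π.comp (H ⊓ centralizer ({T} : Set G)).subtype).range := by
      rintro _ ⟨h, rfl⟩
      exact ⟨⟨_, hcC h h.2⟩, rfl⟩
    have heq : φ.range = (π.comp (H ⊓ centralizer ({T} : Set G)).subtype).range :=
      Subgroup.eq_of_le_of_card_ge hle (by rw [hrange, hrangeψ])
    intro x hx
    have hxr : π x ∈ φ.range := by
      rw [heq]; exact ⟨⟨x, hx⟩, rfl⟩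
    obtain ⟨h, hh⟩ := hxr
    rw [hφ] at hh
    have hζ : ((h : G)⁻¹ * T * h * T⁻¹)⁻¹ * x ∈ Z := by
      rw [← S.ker, MonoidHom.mem_ker, map_mul, map_inv, hh, inv_mul_cancel]
    have hζ2 := S.z_mul_self hζ
    have hζc := S.zcent _ hζ
    have hcs := hcsq h h.2
    have ex : x = ((h : G)⁻¹ * T * h * T⁻¹) * (((h : G)⁻¹ * T * h * T⁻¹)⁻¹ * x) := by group
    generalize ((h : G)⁻¹ * T * h * T⁻¹)⁻¹ * x = ζ at hζ hζ2 hζc ex
    generalize (h : G)⁻¹ * T * h * T⁻¹ = c at hcs ex
    rw [ex]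
    calc c * ζ * (c * ζ) = c * (ζ * c) * ζ := by group
      _ = c * (c * ζ) * ζ := by rw [← hζc c]
      _ = (c * c) * (ζ * ζ) := by group
      _ = 1 := by rw [hcs, hζ2, mul_one]

end Ord320Setting

end Cfsg.Agent.Helper30
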