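/-
Helper library of seat helper30: the order `320` theorem in terms of an extraspecial normal
subgroup `H` of order `32` which is the largest normal `2`-subgroup and contains its centralizer.
Namespace `Cfsg.Agent.Helper30`.
-/
import Cfsg.Agent.Helper30.Ord320
import Cfsg.Agent.Helper48.Extraspecial2

set_option autoImplicit false

namespace Cfsg.Agent.Helper30

open Subgroup

theorem isElementaryAbelian_two_of_mul_self {G : Type*} [Group G] (C : Subgroup G)
    (h : ∀ x ∈ C, x * x = 1) : Cfsg.IsElementaryAbelian 2 C := by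
  refine ⟨⟨⟨fun a b => ?_⟩⟩, fun a ha => by rw [pow_two]; exact h a ha⟩
  apply Subtype.ext
  show (a : G) * (b : G) = (b : G) * (a : G)
  have ha := h a a.2
  have hb := h b b.2
  have hab := h _ (C.mul_mem a.2 b.2)
  calc (a : G) * (b : G) = ((a : G) * (b : G))⁻¹ := (inv_eq_of_mul_eq_one_left hab).symm
    _ = (b : G)⁻¹ * (a : G)⁻¹ := mul_inv_rev _ _
    _ = (b : G) * (a : G) := by
        rw [inv_eq_of_mul_eq_one_left hb, inv_eq_of_mul_eq_one_left ha]

/-- The order `320` theorem: `H` normal extraspecial of order `32` without elementary abelian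
subgroups of order `8`, the largest normal `2`-subgroup, containing its centralizer; `T ∉ H` an
involution centralizing a four-group `V ≤ H`.  Then `C_H(T) = V`. -/
theorem ord320_centralizer {G : Type*} [Group G] [Finite G] (H : Subgroup G) (hn : H.Normal)
    (hG : Nat.card G = 320)
    (hmax : ∀ N : Subgroup G, N.Normal → IsPGroup 2 ↥N → N ≤ H)
    (hcent : centralizer (H : Set G) ≤ H)
    (hex : Cfsg.IsExtraspecial 2 ↥H) (h32 : Nat.card ↥H = 32)
    (hminus : ∀ A : Subgroup G, A ≤ H → Cfsg.IsElementaryAbelian 2 A → Nat.card ↥A ≤ 4)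
    (T : G) (hT : orderOf T = 2) (hTH : T ∉ H)
    (V : Subgroup G) (hV : V ≤ H ⊓ centralizer ({T} : Set G)) (hV4 : Nat.card ↥V = 4)
    (hVe : Cfsg.IsElementaryAbelian 2 V) :
    Nat.card ↥(H ⊓ centralizer ({T} : Set G)) = 4 ∧
      Cfsg.IsElementaryAbelian 2 (H ⊓ centralizer ({T} : Set G)) := by
  have h2 : Nat.card (center ↥H) = 2 := hex.2
  have hc := Cfsg.Agent.Helper48.comm_mem_center_of_isExtraspecial hex
  have hsq := Cfsg.Agent.Helper48.sq_mem_center hc h2
  have hmemZ : ∀ x : G, x ∈ (center ↥H).map H.subtype ↔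
      ∃ hx : x ∈ H, (⟨x, hx⟩ : ↥H) ∈ center ↥H := by
    intro x
    constructor
    · rintro ⟨y, hy, rfl⟩
      exact ⟨y.2, hy⟩
    · rintro ⟨hx, hy⟩
      exact ⟨⟨x, hx⟩, hy, rfl⟩
  have hZ2 : Nat.card ↥((center ↥H).map H.subtype) = 2 := by
    rw [Subgroup.card_map_of_injective (Subgroup.subtype_injective H)]
    exact h2
  have hZH : (center ↥H).map H.subtype ≤ H := Subgroup.map_subtype_le _
  have hZc : ∀ z ∈ (center ↥H).map H.subtype, ∀ g : G, g * z = z * g := by
    intro z hz g
    obtain ⟨hzH, hzc⟩ := (hmemZ z).mp hz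
    have hconj : (⟨g * z * g⁻¹, hn.conj_mem z hzH g⟩ : ↥H) ∈ center ↥H := by
      rw [Subgroup.mem_center_iff]
      intro y
      apply Subtype.ext
      show (y : G) * (g * z * g⁻¹) = g * z * g⁻¹ * y
      have hy' : g⁻¹ * y * g ∈ H := by
        have := hn.conj_mem y y.2 g⁻¹
        rwa [inv_inv] at this
      have h1 := Subgroup.mem_center_iff.mp hzc ⟨g⁻¹ * y * g, hy'⟩
      have h' : (g⁻¹ * y * g) * z = z * (g⁻¹ * y * g) := congrArg Subtype.val h1
      calc (y : G) * (g * z * g⁻¹) = g * ((g⁻¹ * y * g) * z) * g⁻¹ := by group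
        _ = g * (z * (g⁻¹ * y * g)) * g⁻¹ := by rw [h']
        _ = g * z * g⁻¹ * y := by group
    by_cases hz1 : z = 1
    · rw [hz1, mul_one, one_mul]
    · have hne : (⟨⟨z, hzH⟩, hzc⟩ : center ↥H) ≠ 1 := by
        intro h
        apply hz1
        have := congrArg (fun c : center ↥H => ((c : ↥H) : G)) h
        exact this
      rcases Cfsg.Agent.Helper48.center_cases h2 hne ⟨⟨g * z * g⁻¹, hn.conj_mem z hzH g⟩, hconj⟩
        with h | h
      · exfalso
        apply hz1
        have h' : g * z * g⁻¹ = 1 := congrArg (fun c : center ↥H => ((c : ↥H) : G)) h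
        calc z = g⁻¹ * (g * z * g⁻¹) * g := by group
          _ = 1 := by rw [h']; group
      · have h' : g * z * g⁻¹ = z := congrArg (fun c : center ↥H => ((c : ↥H) : G)) h
        calc g * z = g * z * g⁻¹ * g := by group
          _ = z * g := by rw [h']
  generalize (center ↥H).map H.subtype = Z at hmemZ hZ2 hZH hZc
  have hZn : Z.Normal := ⟨fun z hz g => by rw [hZc z hz g, mul_inv_cancel_right]; exact hz⟩
  have hπ : ∀ x : G, QuotientGroup.mk' Z x = 1 ↔ x ∈ Z := fun x => QuotientGroup.eq_one_iff x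
  have S : Ord320Setting H Z (QuotientGroup.mk' Z) :=
    { normal := hn
      ker := QuotientGroup.ker_mk' Z
      surj := QuotientGroup.mk'_surjective Z
      zle := hZH
      zcent := hZc
      zcard := hZ2
      comm := by
        intro a ha b hb
        have h1 := hc ⟨a, ha⟩ ⟨b, hb⟩
        have h3 : a * b * a⁻¹ * b⁻¹ ∈ Z := (hmemZ _).mpr ⟨_, h1⟩
        rw [← hπ] at h3
        simp only [map_mul, map_inv] at h3
        generalize QuotientGroup.mk' Z a = x at h3 ⊢
        generalize QuotientGroup.mk' Z b = y at h3 ⊢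
        calc x * y = (x * y * x⁻¹ * y⁻¹) * (y * x) := by group
          _ = y * x := by rw [h3, one_mul]
      sq := by
        intro a ha
        have h1 := hsq ⟨a, ha⟩
        have h3 : a ^ 2 ∈ Z := (hmemZ _).mpr ⟨H.pow_mem ha 2, h1⟩
        rw [← map_mul, ← pow_two, hπ]
        exact h3
      cardG := hG
      cardH := h32
      hmax := hmax
      cent := hcent }
  have hT2 : T * T = 1 := by
    have := pow_orderOf_eq_one T
    rwa [hT, pow_two] at this
  rcases S.cent_eq_or hT2 hTH V hV hV4 with h | ⟨h8, hsqC⟩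
  · rw [h]
    exact ⟨hV4, hVe⟩
  · exfalso
    have := hminus _ inf_le_left (isElementaryAbelian_two_of_mul_self _ hsqC)
    rw [h8] at this
    omega

end Cfsg.Agent.Helper30
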